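import Mathlib

/-!
# A family of groups `H_k = (M₂(K))^k ⋊ (2 × PSL₂(K))` with the "truncated Ree spectrum": definitions
-/

set_option autoImplicit false

namespace Cfsg.Agent.Lib.Lead.ReeCube

open Matrix

variable (K : Type*) [Field K] [CharP K 3]

/-- the module: `2 × 2` matrices -/
abbrev VV := Matrix (Fin 2) (Fin 2) K

/-- the group of linear automorphisms of the module -/
abbrev AV := VV K ≃ₗ[K] VV K

theorem fact3 : Fact (Nat.Prime 3) := ⟨by norm_num⟩

variable {K}

/-- entrywise cube -/
noncomputable def cub : VV K →+* VV K :=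
  haveI := fact3
  (frobenius K 3).mapMatrix

theorem cub_apply (M : VV K) (i j : Fin 2) : cub M i j = M i j ^ 3 := rfl

/-- `g • M = g M (g^(3))ᵀ` -/
noncomputable def actSL : Matrix.SpecialLinearGroup (Fin 2) K →* AV K where
  toFun g :=
    { toFun := fun M => g.1 * M * (cub g.1)ᵀ
      invFun := fun M => (g⁻¹).1 * M * (cub (g⁻¹).1)ᵀ
      left_inv := fun M => by
        have h1 : (g⁻¹).1 * g.1 = 1 := by rw [← Matrix.SpecialLinearGroup.coe_mul, inv_mul_cancel]; rfl
        have h2 : (cub g.1)ᵀ * (cub (g⁻¹).1)ᵀ = 1 := by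
          rw [← transpose_mul, ← map_mul, h1, map_one, transpose_one]
        calc (g⁻¹).1 * (g.1 * M * (cub g.1)ᵀ) * (cub (g⁻¹).1)ᵀ
            = ((g⁻¹).1 * g.1) * M * ((cub g.1)ᵀ * (cub (g⁻¹).1)ᵀ) := by simp only [Matrix.mul_assoc]
          _ = M := by rw [h1, h2, Matrix.one_mul, Matrix.mul_one]
      right_inv := fun M => by
        have h1 : g.1 * (g⁻¹).1 = 1 := by rw [← Matrix.SpecialLinearGroup.coe_mul, mul_inv_cancel]; rfl
        have h2 : (cub (g⁻¹).1)ᵀ * (cub g.1)ᵀ = 1 := by
          rw [← transpose_mul, ← map_mul, h1, map_one, transpose_one]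
        calc g.1 * ((g⁻¹).1 * M * (cub (g⁻¹).1)ᵀ) * (cub g.1)ᵀ
            = (g.1 * (g⁻¹).1) * M * ((cub (g⁻¹).1)ᵀ * (cub g.1)ᵀ) := by simp only [Matrix.mul_assoc]
          _ = M := by rw [h1, h2, Matrix.one_mul, Matrix.mul_one]
      map_add' := fun M M' => by rw [Matrix.mul_add, Matrix.add_mul]
      map_smul' := fun c M => by
        rw [RingHom.id_apply, Matrix.mul_smul, Matrix.smul_mul] }
  map_one' := by
    ext M : 1
    show (1 : Matrix.SpecialLinearGroup (Fin 2) K).1 * M * (cub (1 : Matrix.SpecialLinearGroup (Fin 2) K).1)ᵀ = M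
    rw [Matrix.SpecialLinearGroup.coe_one, map_one, transpose_one, Matrix.one_mul, Matrix.mul_one]
  map_mul' := fun g h => by
    ext M : 1
    show (g * h).1 * M * (cub (g * h).1)ᵀ = g.1 * (h.1 * M * (cub h.1)ᵀ) * (cub g.1)ᵀ
    rw [Matrix.SpecialLinearGroup.coe_mul, map_mul, transpose_mul]
    simp only [Matrix.mul_assoc]

theorem actSL_apply (g : Matrix.SpecialLinearGroup (Fin 2) K) (M : VV K) :
    actSL g M = g.1 * M * (cub g.1)ᵀ := rfl

theorem center_le_ker : Subgroup.center (Matrix.SpecialLinearGroup (Fin 2) K) ≤ (actSL (K := K)).ker := by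
  intro g hg
  rw [Matrix.SpecialLinearGroup.mem_center_iff] at hg
  obtain ⟨r, hr, hg⟩ := hg
  rw [MonoidHom.mem_ker]
  ext M : 1
  rw [actSL_apply, ← hg]
  have h2 : r ^ 2 = 1 := by simpa using hr
  have h4 : r * r ^ 3 = 1 := by
    calc r * r ^ 3 = (r ^ 2) ^ 2 := by ring
      _ = 1 := by rw [h2, one_pow]
  have hc : cub (scalar (Fin 2) r) = scalar (Fin 2) (r ^ 3) := by
    ext i j
    rw [cub_apply]
    fin_cases i <;> fin_cases j <;> simp [scalar_apply, diagonal]
  rw [hc]
  ext i j
  simp only [scalar_apply, diagonal_transpose, diagonal_mul, mul_diagonal, LinearEquiv.coe_one, id_eq]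
  calc r * M i j * r ^ 3 = (r * r ^ 3) * M i j := by ring
    _ = M i j := by rw [h4, one_mul]

/-- the action of `PSL₂(K)` -/
noncomputable def actPSL : Matrix.ProjectiveSpecialLinearGroup (Fin 2) K →* AV K :=
  QuotientGroup.lift _ actSL center_le_ker

theorem actPSL_mk (g : Matrix.SpecialLinearGroup (Fin 2) K) (M : VV K) :
    actPSL (QuotientGroup.mk g : Matrix.ProjectiveSpecialLinearGroup (Fin 2) K) M = g.1 * M * (cub g.1)ᵀ := rfl

/-- the sign action -/
noncomputable def actSgn : ℤˣ →* AV K where
  toFun ε :=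
    { toFun := fun M => (ε : ℤ) • M
      invFun := fun M => (ε : ℤ) • M
      left_inv := fun M => by
        show (ε : ℤ) • ((ε : ℤ) • M) = M
        rw [smul_smul, ← Units.val_mul, Int.units_mul_self, Units.val_one, one_smul]
      right_inv := fun M => by
        show (ε : ℤ) • ((ε : ℤ) • M) = M
        rw [smul_smul, ← Units.val_mul, Int.units_mul_self, Units.val_one, one_smul]
      map_add' := fun M M' => smul_add _ _ _
      map_smul' := fun c M => by rw [RingHom.id_apply, smul_comm] }
  map_one' := by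
    ext M : 1
    show ((1 : ℤˣ) : ℤ) • M = M
    rw [Units.val_one, one_smul]
  map_mul' := fun a b => by
    ext M : 1
    show ((a * b : ℤˣ) : ℤ) • M = (a : ℤ) • ((b : ℤ) • M)
    rw [smul_smul, Units.val_mul]

variable (K) in
/-- `X = 2 × PSL₂(K)` -/
abbrev XX := ℤˣ × Matrix.ProjectiveSpecialLinearGroup (Fin 2) K

/-- the action of `X` on `V` -/
noncomputable def actX : XX K →* AV K :=
  MonoidHom.noncommCoprod actSgn actPSL (fun ε g => by
    ext M : 1
    show (ε : ℤ) • (actPSL g M) = actPSL g ((ε : ℤ) • M)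
    rw [map_zsmul])

theorem actX_mk (ε : ℤˣ) (g : Matrix.SpecialLinearGroup (Fin 2) K) (M : VV K) :
    actX (ε, (QuotientGroup.mk g : Matrix.ProjectiveSpecialLinearGroup (Fin 2) K)) M =
      (ε : ℤ) • (g.1 * M * (cub g.1)ᵀ) := rfl

variable (K) in
/-- `W_k = V^k`, written multiplicatively -/
abbrev WW (k : ℕ) := Multiplicative (Fin k → VV K)

/-- the diagonal action of `X` on `W_k` -/
noncomputable def actW (k : ℕ) : XX K →* MulAut (WW K k) where
  toFun x :=
    { toFun := fun w => Multiplicative.ofAdd (fun i => actX x (Multiplicative.toAdd w i))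
      invFun := fun w => Multiplicative.ofAdd (fun i => actX x⁻¹ (Multiplicative.toAdd w i))
      left_inv := fun w => by
        apply Multiplicative.toAdd.injective
        funext i
        show actX x⁻¹ (actX x (Multiplicative.toAdd w i)) = Multiplicative.toAdd w i
        rw [← LinearEquiv.mul_apply, ← map_mul, inv_mul_cancel, map_one, LinearEquiv.coe_one, id_eq]
      right_inv := fun w => by
        apply Multiplicative.toAdd.injective
        funext i
        show actX x (actX x⁻¹ (Multiplicative.toAdd w i)) = Multiplicative.toAdd w i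
        rw [← LinearEquiv.mul_apply, ← map_mul, mul_inv_cancel, map_one, LinearEquiv.coe_one, id_eq]
      map_mul' := fun w w' => by
        apply Multiplicative.toAdd.injective
        funext i
        show actX x (Multiplicative.toAdd w i + Multiplicative.toAdd w' i) = _
        rw [map_add]
        rfl }
  map_one' := by
    ext w : 1
    apply Multiplicative.toAdd.injective
    funext i
    show actX 1 (Multiplicative.toAdd w i) = Multiplicative.toAdd w i
    rw [map_one, LinearEquiv.coe_one, id_eq]
  map_mul' := fun x y => by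
    ext w : 1
    apply Multiplicative.toAdd.injective
    funext i
    show actX (x * y) (Multiplicative.toAdd w i) = actX x (actX y (Multiplicative.toAdd w i))
    rw [map_mul, LinearEquiv.mul_apply]

theorem actW_apply (k : ℕ) (x : XX K) (w : WW K k) (i : Fin k) :
    Multiplicative.toAdd (actW k x w) i = actX x (Multiplicative.toAdd w i) := rfl

variable (K) in
/-- `H_k = V^k ⋊ (2 × PSL₂(K))` -/
abbrev HH (k : ℕ) := WW K k ⋊[actW k] XX K

end Cfsg.Agent.Lib.Lead.ReeCube
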