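import Cfsg.Agent.Lib.Lead.ReeCube.Base

set_option autoImplicit false

namespace Cfsg.Agent.Lib.Lead.ReeCube

open Matrix

variable {K : Type*} [Field K] [CharP K 3]

namespace Fix

omit [CharP K 3] in
theorem ch2 (g : Matrix (Fin 2) (Fin 2) K) (hg : g.det = 1) : g * g = g.trace • g - 1 := by
  rw [det_fin_two] at hg
  ext i j
  fin_cases i <;> fin_cases j <;>
    simp [Matrix.mul_apply, Fin.sum_univ_two, Matrix.trace_fin_two] <;>
    first | linear_combination -hg | ring1

omit [CharP K 3] in
theorem key (g C M : Matrix (Fin 2) (Fin 2) K) (e : K) (hg : g.det = 1) (hC : C.det = 1)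
    (he : e * e = 1) (h : g * M * C = e • M) : (C.trace * e - g.trace) • M = 0 := by
  have h1 : g * (g * M * C) = g * (e • M) := by rw [h]
  have h1' : g * (g * M * C) = g.trace • (g * M * C) - M * C := by
    calc g * (g * M * C) = (g * g) * M * C := by simp only [Matrix.mul_assoc]
      _ = _ := by
        rw [ch2 g hg, Matrix.sub_mul, Matrix.sub_mul, Matrix.one_mul, Matrix.smul_mul,
          Matrix.smul_mul]
  have h2 : (g * M * C) * C = (e • M) * C := by rw [h]
  have h2' : (g * M * C) * C = C.trace • (g * M * C) - g * M := by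
    calc (g * M * C) * C = g * M * (C * C) := by simp only [Matrix.mul_assoc]
      _ = _ := by
        rw [ch2 C hC, Matrix.mul_sub, Matrix.mul_one, Matrix.mul_smul]
  rw [h1', h, Matrix.mul_smul] at h1
  rw [h2', h, Matrix.smul_mul] at h2
  -- h1 : t • e • M - M * C = e • (g * M);  h2 : s • e • M - g * M = e • (M * C)
  have h3 : M * C = g.trace • e • M - e • (g * M) := by
    rw [← h1]; abel
  rw [h3, smul_sub, smul_smul, smul_smul, smul_smul, smul_smul, he, one_smul] at h2
  have h4 : e * g.trace * e = g.trace := by linear_combination g.trace * he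
  rw [h4] at h2
  rw [sub_smul]
  have h5 := sub_left_injective h2
  rw [h5, sub_self]

omit [CharP K 3] in
theorem mk_eq_one_of (s : SpecialLinearGroup (Fin 2) K) (h : s.1 = -1) :
    (QuotientGroup.mk s : ProjectiveSpecialLinearGroup (Fin 2) K) = 1 := by
  refine (QuotientGroup.eq_one_iff s).2 ?_
  rw [Matrix.SpecialLinearGroup.mem_center_iff]
  refine ⟨-1, by simp, ?_⟩
  show _ = s.1
  rw [h]
  ext i j
  fin_cases i <;> fin_cases j <;> simp

theorem trace_cub (g : Matrix (Fin 2) (Fin 2) K) : ((cub g)ᵀ).trace = g.trace ^ 3 := by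
  have := fact3
  rw [Matrix.trace_transpose, Matrix.trace_fin_two, Matrix.trace_fin_two, cub_apply, cub_apply,
    add_pow_char]

theorem det_cub (g : Matrix (Fin 2) (Fin 2) K) (hg : g.det = 1) : ((cub g)ᵀ).det = 1 := by
  have := fact3
  rw [Matrix.det_transpose, det_fin_two, cub_apply, cub_apply, cub_apply, cub_apply]
  rw [det_fin_two] at hg
  have h1 : (g 0 0 * g 1 1 - g 0 1 * g 1 0) ^ 3 = 1 := by rw [hg, one_pow]
  rw [sub_pow_char] at h1
  linear_combination h1

end Fix

/-- [C-FIX] -/
theorem fix_order [Fintype K] (hq : Fintype.card K % 4 = 3) (x : XX K) (M : VV K) (hM : M ≠ 0)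
    (h : actX x M = M) : x ^ 2 = 1 ∨ x ^ 3 = 1 := by
  obtain ⟨ε, y⟩ := x
  obtain ⟨g, rfl⟩ := QuotientGroup.mk_surjective y
  rw [actX_mk] at h
  have hdet : g.1.det = 1 := g.2
  have hch := Fix.ch2 g.1 hdet
  have hsq : ∀ k : ℕ, (g ^ k).1 = g.1 ^ k := fun k => Matrix.SpecialLinearGroup.coe_pow g k
  -- consequences of the trace
  have case0 : g.1.trace = 0 →
      (QuotientGroup.mk g : ProjectiveSpecialLinearGroup (Fin 2) K) ^ 2 = 1 := by
    intro ht
    rw [← QuotientGroup.mk_pow]
    apply Fix.mk_eq_one_of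
    rw [hsq, sq, hch, ht, zero_smul, zero_sub]
  have case1 : g.1.trace = 1 →
      (QuotientGroup.mk g : ProjectiveSpecialLinearGroup (Fin 2) K) ^ 3 = 1 := by
    intro ht
    rw [← QuotientGroup.mk_pow]
    apply Fix.mk_eq_one_of
    rw [ht, one_smul] at hch
    rw [hsq, pow_succ, sq, hch, Matrix.sub_mul, hch, Matrix.one_mul]
    abel
  have case2 : g.1.trace = -1 →
      (QuotientGroup.mk g : ProjectiveSpecialLinearGroup (Fin 2) K) ^ 3 = 1 := by
    intro ht
    rw [← QuotientGroup.mk_pow]
    have : g ^ 3 = 1 := by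
      apply Subtype.ext
      show (g ^ 3).1 = 1
      rw [ht, neg_one_smul] at hch
      rw [hsq, pow_succ, sq, hch, Matrix.sub_mul, Matrix.neg_mul, hch, Matrix.one_mul]
      abel
    rw [this]
    rfl
  rcases Int.units_eq_one_or ε with rfl | rfl
  · have h' : g.1 * M * (cub g.1)ᵀ = (1 : K) • M := by
      rw [one_smul]
      simpa using h
    have hk := Fix.key g.1 _ M 1 hdet (Fix.det_cub g.1 hdet) (one_mul 1) h'
    rw [Fix.trace_cub, mul_one] at hk
    have ht : g.1.trace ^ 3 - g.1.trace = 0 := (smul_eq_zero.1 hk).resolve_right hM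
    have ht' : g.1.trace * ((g.1.trace - 1) * (g.1.trace + 1)) = 0 := by linear_combination ht
    rcases mul_eq_zero.1 ht' with h0 | h0
    · left
      exact Prod.ext (by simp) (case0 h0)
    · right
      rcases mul_eq_zero.1 h0 with h1 | h1
      · exact Prod.ext (by simp) (case1 (sub_eq_zero.1 h1))
      · exact Prod.ext (by simp) (case2 (eq_neg_of_add_eq_zero_left h1))
  · have h' : g.1 * M * (cub g.1)ᵀ = (-1 : K) • M := by
      have h1 : -(g.1 * M * (cub g.1)ᵀ) = M := by simpa using h
      rw [neg_one_smul]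
      conv_rhs => rw [← h1]
      rw [neg_neg]
    have hk := Fix.key g.1 _ M (-1) hdet (Fix.det_cub g.1 hdet) (by ring) h'
    rw [Fix.trace_cub] at hk
    have ht : g.1.trace ^ 3 * -1 - g.1.trace = 0 := (smul_eq_zero.1 hk).resolve_right hM
    have ht' : g.1.trace * (g.1.trace * g.1.trace + 1) = 0 := by linear_combination -ht
    left
    rcases mul_eq_zero.1 ht' with h0 | h0
    · exact Prod.ext (by simp) (case0 h0)
    · exfalso
      have hs : IsSquare (-1 : K) := ⟨g.1.trace, by linear_combination -h0⟩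
      exact (FiniteField.isSquare_neg_one_iff.1 hs) hq

end Cfsg.Agent.Lib.Lead.ReeCube
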