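import Cfsg.Agent.Lib.Lead.ReeCube.Base

set_option autoImplicit false

namespace Cfsg.Agent.Lib.Lead.ReeCube

open Matrix

variable {K : Type*} [Field K] [CharP K 3]

namespace Nine

/-- the unipotent element -/
def uu (K : Type*) [Field K] : SpecialLinearGroup (Fin 2) K :=
  ⟨!![1, 1; 0, 1], by simp [det_fin_two]⟩

theorem three_eq_zero : (3 : K) = 0 := by
  have := CharP.cast_eq_zero K 3
  exact_mod_cast this

theorem act_E (a b c d : K) : (!![a, b; c, d] : VV K) * !![0, 0; 0, 1] * (cub !![a, b; c, d])ᵀ =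
    !![b * b ^ 3, b * d ^ 3; d * b ^ 3, d * d ^ 3] := by
  ext i j
  fin_cases i <;> fin_cases j <;>
    simp only [Matrix.mul_apply, Fin.sum_univ_two, Matrix.transpose_apply, cub_apply] <;> simp

omit [CharP K 3] in
theorem uu_coe : (uu K).1 = !![1, 1; 0, 1] := rfl

omit [CharP K 3] in
theorem uu2_coe : (uu K * uu K).1 = !![1, 2; 0, 1] := by
  show (!![1, 1; 0, 1] : Matrix (Fin 2) (Fin 2) K) * !![1, 1; 0, 1] = _
  ext i j
  fin_cases i <;> fin_cases j <;> simp [Matrix.mul_apply, Fin.sum_univ_two]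
  norm_num

end Nine

open Nine in
/-- [C-NINE] -/
theorem exists_nine : ∃ (x : XX K) (M : VV K), orderOf x = 3 ∧ M + actX x M + actX (x ^ 2) M ≠ 0 := by
  have h3 : (3 : K) = 0 := three_eq_zero
  have := fact3
  refine ⟨(1, QuotientGroup.mk (uu K)), !![0, 0; 0, 1], ?_, ?_⟩
  · apply orderOf_eq_prime
    · have hu : uu K ^ 3 = 1 := by
        apply Subtype.ext
        show (uu K ^ 3).1 = 1
        rw [Matrix.SpecialLinearGroup.coe_pow]
        show (!![1, 1; 0, 1] : Matrix (Fin 2) (Fin 2) K) ^ 3 = 1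
        ext i j
        fin_cases i <;> fin_cases j <;>
          simp [pow_succ, Matrix.mul_apply, Fin.sum_univ_two] <;> linear_combination h3
      refine Prod.ext (by simp) ?_
      show (QuotientGroup.mk (uu K) : ProjectiveSpecialLinearGroup (Fin 2) K) ^ 3 = 1
      rw [← QuotientGroup.mk_pow, hu]
      rfl
    · intro h
      have h1 : actX ((1 : ℤˣ), (QuotientGroup.mk (uu K) : ProjectiveSpecialLinearGroup (Fin 2) K))
          (!![0, 0; 0, 1] : VV K) = !![0, 0; 0, 1] := by
        rw [h, map_one]; rfl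
      rw [actX_mk, uu_coe, act_E] at h1
      have h2 := congrFun (congrFun h1 0) 0
      simp at h2
  · intro h
    have hx2 : ((1 : ℤˣ), (QuotientGroup.mk (uu K) : ProjectiveSpecialLinearGroup (Fin 2) K)) ^ 2 =
        (1, QuotientGroup.mk (uu K * uu K)) := by
      refine Prod.ext (by simp) ?_
      show (QuotientGroup.mk (uu K) : ProjectiveSpecialLinearGroup (Fin 2) K) ^ 2 = _
      rw [sq]
      rfl
    rw [hx2, actX_mk, actX_mk, uu_coe, uu2_coe, act_E, act_E] at h
    have h2 := congrFun (congrFun h 0) 0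
    simp at h2
    have h4 : (1 : K) = 0 := by
      linear_combination (exp := 1) 6 * h3 - h2
    exact one_ne_zero h4

end Cfsg.Agent.Lib.Lead.ReeCube
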