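import Mathlib

set_option autoImplicit false

namespace Cfsg.Agent.Lib.Lead.ReeCube

namespace SD

variable {N X : Type*} [CommGroup N] [Group X]

theorem pow_eq (φ : X →* MulAut N) (w : N) (x : X) (n : ℕ) :
    (⟨w, x⟩ : N ⋊[φ] X) ^ n = ⟨∏ i ∈ Finset.range n, φ (x ^ i) w, x ^ n⟩ := by
  induction n with
  | zero => simp
  | succ n ih =>
    rw [pow_succ, ih]
    apply SemidirectProduct.ext
    · rw [SemidirectProduct.mul_left, Finset.prod_range_succ]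
    · rw [SemidirectProduct.mul_right, pow_succ]

theorem fix_prod (φ : X →* MulAut N) (w : N) (x : X) :
    φ x (∏ i ∈ Finset.range (orderOf x), φ (x ^ i) w) =
      ∏ i ∈ Finset.range (orderOf x), φ (x ^ i) w := by
  rw [map_prod]
  have h1 : ∀ i, φ x (φ (x ^ i) w) = φ (x ^ (i + 1)) w := by
    intro i
    rw [pow_succ', map_mul]
    rfl
  simp only [h1]
  have h2 := Finset.prod_range_succ (fun i => φ (x ^ i) w) (orderOf x)
  have h3 := Finset.prod_range_succ' (fun i => φ (x ^ i) w) (orderOf x)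
  rw [h2, pow_orderOf_eq_one, pow_zero] at h3
  exact (mul_right_cancel h3).symm

theorem key [Finite X] (h3 : ∀ z : N, z ^ 3 = 1) (φ : X →* MulAut N) (w : N) (x : X) :
    (∏ i ∈ Finset.range (orderOf x), φ (x ^ i) w = 1 → orderOf (⟨w, x⟩ : N ⋊[φ] X) = orderOf x) ∧
    (∏ i ∈ Finset.range (orderOf x), φ (x ^ i) w ≠ 1 →
      orderOf (⟨w, x⟩ : N ⋊[φ] X) = 3 * orderOf x) := by
  set z := ∏ i ∈ Finset.range (orderOf x), φ (x ^ i) w with hz
  have hn : 0 < orderOf x := orderOf_pos x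
  have hpow : (⟨w, x⟩ : N ⋊[φ] X) ^ orderOf x = ⟨z, 1⟩ := by
    rw [pow_eq, pow_orderOf_eq_one]
  have hdvd : orderOf x ∣ orderOf (⟨w, x⟩ : N ⋊[φ] X) := by
    have := orderOf_map_dvd (SemidirectProduct.rightHom : N ⋊[φ] X →* X) (⟨w, x⟩ : N ⋊[φ] X)
    exact this
  have hz1 : (⟨z, 1⟩ : N ⋊[φ] X) = SemidirectProduct.inl z := rfl
  constructor
  · intro h
    apply Nat.dvd_antisymm _ hdvd
    apply orderOf_dvd_of_pow_eq_one
    rw [hpow, h]
    rfl
  · intro h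
    have h3n : (⟨w, x⟩ : N ⋊[φ] X) ^ (3 * orderOf x) = 1 := by
      rw [mul_comm, pow_mul, hpow, hz1, ← map_pow, h3, map_one]
    have hd3 : orderOf (⟨w, x⟩ : N ⋊[φ] X) ∣ 3 * orderOf x := orderOf_dvd_of_pow_eq_one h3n
    obtain ⟨c, hc⟩ := hdvd
    rw [hc, mul_comm 3] at hd3
    have hc3 : c ∣ 3 := Nat.dvd_of_mul_dvd_mul_left hn hd3
    rcases (Nat.dvd_prime (by norm_num : Nat.Prime 3)).1 hc3 with rfl | rfl
    · exfalso
      apply h
      rw [mul_one] at hc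
      have h5 := pow_orderOf_eq_one (⟨w, x⟩ : N ⋊[φ] X)
      rw [hc, hpow] at h5
      exact congrArg SemidirectProduct.left h5
    · rw [hc, mul_comm]

end SD

/-- [C-SD] -/
theorem sd_order {N X : Type*} [CommGroup N] [Group X] [Finite X] (h3 : ∀ z : N, z ^ 3 = 1)
    (φ : X →* MulAut N) (h : N ⋊[φ] X) : orderOf h = orderOf h.right ∨
      (orderOf h = 3 * orderOf h.right ∧ ∃ z : N, z ≠ 1 ∧ φ h.right z = z) := by
  obtain ⟨w, x⟩ := h
  by_cases hz : ∏ i ∈ Finset.range (orderOf x), φ (x ^ i) w = 1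
  · exact Or.inl ((SD.key h3 φ w x).1 hz)
  · exact Or.inr ⟨(SD.key h3 φ w x).2 hz, _, hz, SD.fix_prod φ w x⟩

/-- [C-SD] -/
theorem sd_order_three {N X : Type*} [CommGroup N] [Group X] [Finite X] (h3 : ∀ z : N, z ^ 3 = 1)
    (φ : X →* MulAut N) (x : X) (w : N)
    (hne : ∏ i ∈ Finset.range (orderOf x), φ (x ^ i) w ≠ 1) :
    orderOf (⟨w, x⟩ : N ⋊[φ] X) = 3 * orderOf x :=
  (SD.key h3 φ w x).2 hne

end Cfsg.Agent.Lib.Lead.ReeCube
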