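import Cfsg.Agent.Lib.Lead.ReeCube.SD
import Cfsg.Agent.Lib.Lead.ReeCube.Fix
import Cfsg.Agent.Lib.Lead.ReeCube.Nine
import Cfsg.Agent.Lib.Helper41.Dickson.Packages
import Cfsg.Agent.Lib.Helper41.Dickson.Orders

set_option autoImplicit false

namespace Cfsg.Agent.Lib.Lead.ReeCube

open Matrix

variable {K : Type*} [Field K] [CharP K 3]

namespace Spec

theorem q_mod (m : ℕ) : 3 ^ (2 * m + 1) % 4 = 3 := by
  induction m with
  | zero => norm_num
  | succ n ih =>
    have : 3 ^ (2 * (n + 1) + 1) = 9 * 3 ^ (2 * n + 1) := by ring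
    omega

theorem orderOf_XX [Fintype K] {q : ℕ} (hK : Fintype.card K = q) (hq4 : q % 4 = 3) (x : XX K) :
    orderOf x ∣ 6 ∨ orderOf x ∣ q - 1 ∨ orderOf x ∣ (q + 1) / 2 := by
  have := fact3
  obtain ⟨ε, y⟩ := x
  rw [Prod.orderOf]
  have hε : orderOf ε ∣ 2 := orderOf_dvd_of_pow_eq_one (Int.units_sq ε)
  have hg : Nat.gcd 2 (q - 1) = 2 := Nat.gcd_eq_left (by omega)
  have h := Cfsg.Agent.Lib.Helper41.Dickson.psl2_orderOf_dvd 3 y
  rw [hK, hg] at h
  rcases h with h | h | h
  · left
    exact Nat.lcm_dvd (hε.trans (by norm_num)) (h.trans (by norm_num))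
  · right; left
    exact Nat.lcm_dvd (hε.trans (by omega)) (h.trans (Nat.div_dvd_of_dvd (by omega)))
  · right; right
    exact Nat.lcm_dvd (hε.trans (by omega)) h

theorem exists_of_dvd {G : Type*} [Group G] (g : G) (hg : 0 < orderOf g) {d : ℕ}
    (hd : d ∣ orderOf g) : ∃ h : G, orderOf h = d := by
  obtain ⟨c, hc⟩ := hd
  have hc0 : c ≠ 0 := by
    rintro rfl
    omega
  have hd0 : 0 < c := Nat.pos_of_ne_zero hc0
  refine ⟨g ^ c, ?_⟩
  rw [orderOf_pow_of_dvd hc0 (Dvd.intro_left d hc.symm), hc]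
  exact Nat.mul_div_cancel _ hd0

theorem cube_WW (k : ℕ) (z : WW K k) : z ^ 3 = 1 := by
  apply Multiplicative.toAdd.injective
  show (3 : ℕ) • Multiplicative.toAdd z = 0
  funext i
  ext a b
  have h3 : (3 : K) = 0 := Nine.three_eq_zero
  simp [h3]

theorem orderOf_inr (k : ℕ) (x : XX K) :
    orderOf (SemidirectProduct.inr x : HH K k) = orderOf x :=
  orderOf_injective (SemidirectProduct.inr : XX K →* HH K k) SemidirectProduct.inr_injective x

theorem orderOf_neg_one_units : orderOf (-1 : ℤˣ) = 2 :=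
  orderOf_eq_prime (by decide) (by decide)

end Spec

open Spec in
/-- [C-SPEC] -/
theorem spec_HH [Fintype K] {m : ℕ} (hK : Fintype.card K = 3 ^ (2 * m + 1)) (k : ℕ) (hk : 1 ≤ k) (d : ℕ) :
    (∃ h : HH K k, orderOf h = d) ↔
      (d ∣ 6 ∨ d ∣ 9 ∨ d ∣ 3 ^ (2 * m + 1) - 1 ∨ d ∣ (3 ^ (2 * m + 1) + 1) / 2) := by
  have hq4 := q_mod m
  generalize 3 ^ (2 * m + 1) = q at hK hq4 ⊢
  have hg : Nat.gcd 2 (q - 1) = 2 := Nat.gcd_eq_left (by omega)
  have hfinX : Finite (XX K) := inferInstance
  constructor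
  · rintro ⟨h, rfl⟩
    rcases sd_order (N := WW K k) (X := XX K) (cube_WW k) (actW k) h with h1 | ⟨h1, z, hz, hfix⟩
    · rw [h1]
      rcases orderOf_XX hK hq4 h.right with h2 | h2 | h2
      · exact Or.inl h2
      · exact Or.inr (Or.inr (Or.inl h2))
      · exact Or.inr (Or.inr (Or.inr h2))
    · rw [h1]
      obtain ⟨i, hi⟩ : ∃ i, Multiplicative.toAdd z i ≠ 0 := by
        by_contra hc
        push Not at hc
        apply hz
        apply Multiplicative.toAdd.injective
        funext i
        exact hc i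
      have hfi : actX h.right (Multiplicative.toAdd z i) = Multiplicative.toAdd z i := by
        rw [← actW_apply, hfix]
      rcases fix_order (by rw [hK]; exact hq4) h.right _ hi hfi with h2 | h2
      · left
        have := orderOf_dvd_of_pow_eq_one h2
        exact (Nat.mul_dvd_mul_left 3 this)
      · right; left
        have := orderOf_dvd_of_pow_eq_one h2
        exact (Nat.mul_dvd_mul_left 3 this)
  · obtain ⟨x₀, M, hx₀, hM⟩ := exists_nine (K := K)
    rintro (h | h | h | h)
    · -- order 6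
      have hcomm : Commute (((-1 : ℤˣ), 1) : XX K) x₀ := by
        apply Prod.ext
        · exact mul_comm _ _
        · simp
      have ho2 : orderOf (((-1 : ℤˣ), 1) : XX K) = 2 := by
        rw [Prod.orderOf, orderOf_one, Nat.lcm_one_right]
        exact orderOf_neg_one_units
      have ho : orderOf ((((-1 : ℤˣ), 1) : XX K) * x₀) = 6 := by
        rw [hcomm.orderOf_mul_eq_mul_orderOf_of_coprime (by rw [ho2, hx₀]; norm_num), ho2, hx₀]
      exact exists_of_dvd (SemidirectProduct.inr ((((-1 : ℤˣ), 1) : XX K) * x₀) : HH K k)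
        (by rw [orderOf_inr, ho]; norm_num) (by rw [orderOf_inr, ho]; exact h)
    · -- order 9
      let w : WW K k := Multiplicative.ofAdd (fun _ => M)
      have hne : ∏ i ∈ Finset.range (orderOf x₀), actW k (x₀ ^ i) w ≠ 1 := by
        rw [hx₀]
        intro hc
        apply hM
        have h0 := congrFun (congrArg Multiplicative.toAdd hc) ⟨0, hk⟩
        rw [Finset.prod_range_succ, Finset.prod_range_succ, Finset.prod_range_succ,
          Finset.prod_range_zero, one_mul, pow_zero, map_one, pow_one] at h0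
        exact h0
      have ho := sd_order_three (N := WW K k) (X := XX K) (cube_WW k) (actW k) x₀ w hne
      rw [hx₀] at ho
      exact exists_of_dvd _ (by rw [ho]; norm_num) (by rw [ho]; exact h)
    · -- order q - 1
      obtain ⟨c, hc⟩ := Cfsg.Agent.Lib.Helper41.Dickson.exists_orderOf_minus (F := K)
      rw [hK, hg] at hc
      have ho : orderOf (((-1 : ℤˣ), c) : XX K) = q - 1 := by
        rw [Prod.orderOf]
        show Nat.lcm (orderOf (-1 : ℤˣ)) (orderOf c) = q - 1
        rw [orderOf_neg_one_units, Nat.Coprime.lcm_eq_mul, hc]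
        rw [Nat.coprime_two_left]
        rw [Nat.odd_iff]
        omega
      exact exists_of_dvd (SemidirectProduct.inr (((-1 : ℤˣ), c) : XX K) : HH K k)
        (by rw [orderOf_inr, ho]; omega) (by rw [orderOf_inr, ho]; exact h)
    · -- order (q + 1) / 2
      obtain ⟨c, hc⟩ := Cfsg.Agent.Lib.Helper41.Dickson.exists_orderOf_plus (F := K)
      rw [hK, hg] at hc
      have ho : orderOf (((1 : ℤˣ), c) : XX K) = (q + 1) / 2 := by
        rw [Prod.orderOf]
        show Nat.lcm (orderOf (1 : ℤˣ)) (orderOf c) = (q + 1) / 2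
        rw [orderOf_one, Nat.lcm_one_left]
        omega
      exact exists_of_dvd (SemidirectProduct.inr (((1 : ℤˣ), c) : XX K) : HH K k)
        (by rw [orderOf_inr, ho]; omega) (by rw [orderOf_inr, ho]; exact h)

end Cfsg.Agent.Lib.Lead.ReeCube
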